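import Mathlib
import Cfsg.Prelude.Def_SylowControl

set_option autoImplicit false

namespace Cfsg.Agent.Lib.Helper49

variable {G : Type*} [Group G]

theorem mem_subgroupConjRight {g y : G} {X : Subgroup G} :
    y ∈ Cfsg.subgroupConjRight g X ↔ g * y * g⁻¹ ∈ X := by
  unfold Cfsg.subgroupConjRight
  rw [Subgroup.mem_map]
  constructor
  · rintro ⟨x, hx, rfl⟩
    have : g * (MulAut.conj g⁻¹).toMonoidHom x * g⁻¹ = x := by
      simp [mul_assoc]
    rw [this]
    exact hx
  · intro h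
    exact ⟨g * y * g⁻¹, h, by simp [mul_assoc]⟩

theorem subgroupConjRight_mul (g h : G) (X : Subgroup G) :
    Cfsg.subgroupConjRight h (Cfsg.subgroupConjRight g X) = Cfsg.subgroupConjRight (g * h) X := by
  ext y
  simp only [mem_subgroupConjRight]
  have : g * (h * y * h⁻¹) * g⁻¹ = g * h * y * (g * h)⁻¹ := by group
  rw [this]

theorem subgroupConjRight_one (X : Subgroup G) : Cfsg.subgroupConjRight 1 X = X := by
  ext y
  simp [mem_subgroupConjRight]

theorem subgroupConjRight_inf (g : G) (A B : Subgroup G) :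
    Cfsg.subgroupConjRight g (A ⊓ B) = Cfsg.subgroupConjRight g A ⊓ Cfsg.subgroupConjRight g B := by
  ext y
  simp only [mem_subgroupConjRight, Subgroup.mem_inf]

theorem card_subgroupConjRight (g : G) (X : Subgroup G) :
    Nat.card ↥(Cfsg.subgroupConjRight g X) = Nat.card ↥X :=
  Subgroup.card_map_of_injective (MulAut.conj g⁻¹).injective

theorem subgroupConjRight_mono (g : G) {A B : Subgroup G} (h : A ≤ B) :
    Cfsg.subgroupConjRight g A ≤ Cfsg.subgroupConjRight g B :=
  Subgroup.map_mono h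

theorem subgroupConjRight_inv_cancel (g : G) (X : Subgroup G) :
    Cfsg.subgroupConjRight g⁻¹ (Cfsg.subgroupConjRight g X) = X := by
  rw [subgroupConjRight_mul, mul_inv_cancel, subgroupConjRight_one]

theorem subgroupConjRight_cancel_inv (g : G) (X : Subgroup G) :
    Cfsg.subgroupConjRight g (Cfsg.subgroupConjRight g⁻¹ X) = X := by
  rw [subgroupConjRight_mul, inv_mul_cancel, subgroupConjRight_one]

/-- `X ∈ 𝓕(S)` by cardinality. -/
theorem mem_sylowMembers_iff [Finite G] {p : ℕ} [Fact p.Prime] {𝓕 : Set (Subgroup G)}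
    {S X : Subgroup G} :
    X ∈ Cfsg.sylowMembers p 𝓕 S ↔
      X ∈ 𝓕 ∧ Nat.card ↥(S ⊓ X) = p ^ (Nat.card ↥X).factorization p := by
  constructor
  · rintro ⟨hX, P, hP⟩
    refine ⟨hX, ?_⟩
    rw [← hP, Subgroup.card_map_of_injective X.subtype_injective]
    exact P.card_eq_multiplicity
  · rintro ⟨hX, hcard⟩
    refine ⟨hX, ?_⟩
    have h1 : Nat.card ↥((S ⊓ X).subgroupOf X) = p ^ (Nat.card ↥X).factorization p := by
      rw [← hcard]
      exact Nat.card_congr (Subgroup.subgroupOfEquivOfLe inf_le_right).toEquiv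
    refine ⟨Sylow.ofCard _ h1, ?_⟩
    rw [Sylow.coe_ofCard, Subgroup.subgroupOf_map_subtype, inf_assoc, inf_idem]

/-- `𝓕(S)` is conjugation-equivariant for a normal family `𝓕`. -/
theorem sylowMembers_conj [Finite G] {p : ℕ} [Fact p.Prime] {𝓕 : Set (Subgroup G)}
    (h𝓕 : Cfsg.IsNormalSet 𝓕) {S X : Subgroup G} (g : G) (hX : X ∈ Cfsg.sylowMembers p 𝓕 S) :
    Cfsg.subgroupConjRight g X ∈ Cfsg.sylowMembers p 𝓕 (Cfsg.subgroupConjRight g S) := by
  rw [mem_sylowMembers_iff] at hX ⊢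
  refine ⟨h𝓕 X hX.1 g, ?_⟩
  rw [← subgroupConjRight_inf, card_subgroupConjRight, card_subgroupConjRight]
  exact hX.2

/-- The underlying subgroup of `g⁻¹ • S`. -/
theorem coe_inv_smul_sylow {p : ℕ} (g : G) (S : Sylow p G) :
    ((g⁻¹ • S : Sylow p G) : Subgroup G) = Cfsg.subgroupConjRight g (S : Subgroup G) := rfl

end Cfsg.Agent.Lib.Helper49
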