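import Mathlib
import Cfsg.Prelude.Def_SylowControl
import Cfsg.Agent.Lib.Helper49.SylCtl

set_option autoImplicit false

namespace Cfsg.Agent.Lib.Helper49

variable {G : Type*} [Group G]

theorem subgroupConjRight_of_mem {g : G} {X : Subgroup G} (hg : g ∈ X) :
    Cfsg.subgroupConjRight g X = X := by
  ext y
  rw [mem_subgroupConjRight]
  constructor
  · intro h
    have := X.mul_mem (X.mul_mem (X.inv_mem hg) h) hg
    simpa [mul_assoc] using this
  · intro h
    exact X.mul_mem (X.mul_mem hg h) (X.inv_mem hg)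

theorem coe_smul_sylow {p : ℕ} (g : G) (S : Sylow p G) :
    ((g • S : Sylow p G) : Subgroup G) = Cfsg.subgroupConjRight g⁻¹ (S : Subgroup G) := by
  rw [← coe_inv_smul_sylow, inv_inv]

theorem mem_normalizer_of_conjRight_eq {g : G} {S : Subgroup G}
    (h : Cfsg.subgroupConjRight g S = S) : g ∈ Subgroup.normalizer (S : Set G) := by
  rw [Subgroup.mem_normalizer_iff]
  intro y
  rw [← mem_subgroupConjRight, h]

theorem conjRight_eq_of_mem_normalizer {g : G} {S : Subgroup G}
    (h : g ∈ Subgroup.normalizer (S : Set G)) : Cfsg.subgroupConjRight g S = S := by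
  rw [Subgroup.mem_normalizer_iff] at h
  ext y
  rw [mem_subgroupConjRight]
  exact (h y).symm

/-- Telescoping partial products of `List.ofFn`. -/
theorem prod_take_ofFn_tele {n : ℕ} (K : ℕ → G) (hK0 : K 0 = 1) (y : Fin n → G)
    (hy : ∀ i : Fin n, y i = (K i.val)⁻¹ * K (i.val + 1)) :
    ∀ j, j ≤ n → ((List.ofFn y).take j).prod = K j := by
  intro j
  induction j with
  | zero => intro _; simp [hK0]
  | succ j ih =>
    intro hj
    have hlt : j < (List.ofFn y).length := by simp; omega
    rw [List.prod_take_succ _ _ hlt, ih (by omega), List.getElem_ofFn, hy ⟨j, by omega⟩]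
    simp

end Cfsg.Agent.Lib.Helper49
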