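import Mathlib
import Cfsg.Prelude.Def_SylowChains
import Cfsg.Agent.Lib.Helper49.SylCtl
import Cfsg.Agent.Lib.Helper49.SylCtl2

set_option autoImplicit false

namespace Cfsg.Agent.Lib.Helper49

variable {G : Type*} [Group G]

/-- Image of a right conjugate under a hom. -/
theorem map_subgroupConjRight {H : Type*} [Group H] (φ : G →* H) (g : G) (X : Subgroup G) :
    (Cfsg.subgroupConjRight g X).map φ = Cfsg.subgroupConjRight (φ g) (X.map φ) := by
  show (X.map _).map φ = (X.map φ).map _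
  rw [Subgroup.map_map, Subgroup.map_map]
  congr 1
  ext y
  simp

/-- A Sylow subgroup of a subgroup of index prime to `p`, as a Sylow subgroup of the group. -/
noncomputable def sylUp [Finite G] {p : ℕ} [Fact p.Prime] {M : Subgroup G} (hM : ¬ p ∣ M.index)
    (Q : Sylow p ↥M) : Sylow p G :=
  (Q.isPGroup'.map M.subtype).toSylow (by
    rw [Subgroup.index_map_subtype]
    intro hdvd
    rcases (Nat.Prime.dvd_mul Fact.out).mp hdvd with h | h
    · exact Q.not_dvd_index h
    · exact hM h)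

theorem coe_sylUp [Finite G] {p : ℕ} [Fact p.Prime] {M : Subgroup G} (hM : ¬ p ∣ M.index)
    (Q : Sylow p ↥M) : (sylUp hM Q : Subgroup G) = (Q : Subgroup ↥M).map M.subtype := rfl

/-- A subgroup containing a Sylow subgroup and meeting another Sylow subgroup `Q` in one of its
own Sylow subgroups contains `Q`. -/
theorem sylow_le_of_card_inf [Finite G] {p : ℕ} [Fact p.Prime] (P Q : Sylow p G) (X : Subgroup G)
    (hPX : (P : Subgroup G) ≤ X)
    (hQ : Nat.card ↥((Q : Subgroup G) ⊓ X) = p ^ (Nat.card ↥X).factorization p) :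
    (Q : Subgroup G) ≤ X := by
  have hp : p.Prime := Fact.out
  have h1 : Nat.card ↥(P : Subgroup G) = p ^ (Nat.card G).factorization p := P.card_eq_multiplicity
  have h2 : Nat.card ↥(Q : Subgroup G) = p ^ (Nat.card G).factorization p := Q.card_eq_multiplicity
  have h3 : p ^ (Nat.card G).factorization p ∣ Nat.card ↥X := by
    rw [← h1]; exact Subgroup.card_dvd_of_le hPX
  have h4 : (Nat.card G).factorization p ≤ (Nat.card ↥X).factorization p :=
    (hp.pow_dvd_iff_le_factorization Nat.card_pos.ne').mp h3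
  have h5 : Nat.card ↥(Q : Subgroup G) ≤ Nat.card ↥((Q : Subgroup G) ⊓ X) := by
    rw [hQ, h2]; exact Nat.pow_le_pow_right hp.pos h4
  have h6 : (Q : Subgroup G) ⊓ X = Q := Subgroup.eq_of_le_of_card_ge inf_le_left h5
  rw [← h6]; exact inf_le_right

theorem card_inf_of_sylow_le [Finite G] {p : ℕ} [Fact p.Prime] (Q : Sylow p G) (X : Subgroup G)
    (hQX : (Q : Subgroup G) ≤ X) :
    Nat.card ↥((Q : Subgroup G) ⊓ X) = p ^ (Nat.card ↥X).factorization p := by
  rw [inf_of_le_left hQX]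
  have h1 := (Q.subtype hQX).card_eq_multiplicity
  rw [Sylow.coe_subtype] at h1
  rw [← h1]
  exact (Nat.card_congr (Subgroup.subgroupOfEquivOfLe hQX).toEquiv).symm

/-- One link of a chain of Sylow subgroups for the functor family of `M`, in ambient terms. -/
def FLink (p : ℕ) (f : Subgroup G → Set (Subgroup G)) (M D : Subgroup G) (A B : Sylow p G) : Prop :=
  ∃ P : Sylow p G, (P : Subgroup G) ≤ M ∧ ∃ F ∈ f (P : Subgroup G),
    ∃ x ∈ M ⊓ Subgroup.normalizer (F : Set G),
      (A : Subgroup G) ≤ M ⊓ Subgroup.normalizer (F : Set G) ∧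
      (B : Subgroup G) ≤ M ⊓ Subgroup.normalizer (F : Set G) ∧
      Cfsg.subgroupConjRight x (B : Subgroup G) = (A : Subgroup G) ∧ D ≤ (B : Subgroup G)

theorem FLink.mono {p : ℕ} {f : Subgroup G → Set (Subgroup G)} {M D D' : Subgroup G}
    (hD : D' ≤ D) {A B : Sylow p G} (h : FLink p f M D A B) : FLink p f M D' A B := by
  obtain ⟨P, hPM, F, hF, x, hx, hA, hB, hc, hDB⟩ := h
  exact ⟨P, hPM, F, hF, x, hx, hA, hB, hc, hD.trans hDB⟩

theorem FLink.top {p : ℕ} {f : Subgroup G → Set (Subgroup G)} {M D : Subgroup G}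
    {A B : Sylow p G} (h : FLink p f M D A B) : FLink p f ⊤ D A B := by
  obtain ⟨P, hPM, F, hF, x, hx, hA, hB, hc, hDB⟩ := h
  exact ⟨P, le_top, F, hF, x, Subgroup.mem_inf.mpr ⟨Subgroup.mem_top _, (Subgroup.mem_inf.mp hx).2⟩,
    le_inf le_top (hA.trans inf_le_right), le_inf le_top (hB.trans inf_le_right), hc, hDB⟩

theorem normalizer_subgroupConjRight (g : G) (F : Subgroup G) :
    Subgroup.normalizer ((Cfsg.subgroupConjRight g F : Subgroup G) : Set G) =
      Cfsg.subgroupConjRight g (Subgroup.normalizer (F : Set G)) := by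
  ext y
  rw [mem_subgroupConjRight, Subgroup.mem_normalizer_iff, Subgroup.mem_normalizer_iff]
  constructor
  · intro h z
    have h1 := h (g⁻¹ * z * g)
    rw [mem_subgroupConjRight, mem_subgroupConjRight] at h1
    have e1 : g * (g⁻¹ * z * g) * g⁻¹ = z := by group
    have e2 : g * (y * (g⁻¹ * z * g) * y⁻¹) * g⁻¹ = g * y * g⁻¹ * z * (g * y * g⁻¹)⁻¹ := by group
    rw [e1, e2] at h1
    exact h1
  · intro h z
    rw [mem_subgroupConjRight, mem_subgroupConjRight]
    have h1 := h (g * z * g⁻¹)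
    have e2 : g * y * g⁻¹ * (g * z * g⁻¹) * (g * y * g⁻¹)⁻¹ = g * (y * z * y⁻¹) * g⁻¹ := by group
    rw [e2] at h1
    exact h1

theorem FLink.conj {p : ℕ} [Fact p.Prime] {f : Subgroup G → Set (Subgroup G)}
    (hf : Cfsg.IsNormalizerFunctor p f) {D : Subgroup G}
    {A B : Sylow p G} (g : G) (h : FLink p f ⊤ D A B) :
    FLink p f ⊤ (Cfsg.subgroupConjRight g D) (g⁻¹ • A) (g⁻¹ • B) := by
  obtain ⟨P, hPM, F, hF, x, hx, hA, hB, hc, hDB⟩ := h
  have hF' : Cfsg.subgroupConjRight g F ∈ f ((g⁻¹ • P : Sylow p G) : Subgroup G) := by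
    have h1 := (hf (P : Subgroup G) P.isPGroup').2 g⁻¹
    rw [coe_inv_smul_sylow]
    show F.map (MulAut.conj g⁻¹).toMonoidHom ∈ f ((P : Subgroup G).map (MulAut.conj g⁻¹).toMonoidHom)
    rw [h1]
    exact ⟨F, hF, rfl⟩
  refine ⟨g⁻¹ • P, le_top, Cfsg.subgroupConjRight g F, hF', g⁻¹ * x * g, ?_, ?_, ?_, ?_, ?_⟩
  · refine Subgroup.mem_inf.mpr ⟨Subgroup.mem_top _, ?_⟩
    rw [normalizer_subgroupConjRight, mem_subgroupConjRight]
    have e1 : g * (g⁻¹ * x * g) * g⁻¹ = x := by group
    rw [e1]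
    exact (Subgroup.mem_inf.mp hx).2
  · refine le_inf le_top ?_
    rw [normalizer_subgroupConjRight, coe_inv_smul_sylow]
    exact subgroupConjRight_mono g (hA.trans inf_le_right)
  · refine le_inf le_top ?_
    rw [normalizer_subgroupConjRight, coe_inv_smul_sylow]
    exact subgroupConjRight_mono g (hB.trans inf_le_right)
  · rw [coe_inv_smul_sylow, coe_inv_smul_sylow, subgroupConjRight_mul, ← hc, subgroupConjRight_mul]
    congr 1
    group
  · rw [coe_inv_smul_sylow]
    exact subgroupConjRight_mono g hDB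

/-- A regular subgroup of index prime to `p` gives chains of links in ambient terms. -/
theorem chain_of_regular [Finite G] {p : ℕ} [Fact p.Prime] {f : Subgroup G → Set (Subgroup G)}
    (hf : Cfsg.IsNormalizerFunctor p f) {M : Subgroup G} (hM : ¬ p ∣ M.index)
    (hr : Cfsg.IsFunctorRegular p f M) (A B : Sylow p G) (hA : (A : Subgroup G) ≤ M)
    (hB : (B : Subgroup G) ≤ M) (hAB : A ≠ B) (hne : (A : Subgroup G) ⊓ (B : Subgroup G) ≠ ⊥) :
    Relation.ReflTransGen (FLink p f M ((A : Subgroup G) ⊓ (B : Subgroup G))) A B := by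
  classical
  have hAup : sylUp hM (A.subtype hA) = A := by
    apply Sylow.ext
    show ((A : Subgroup G).subgroupOf M).map M.subtype = A
    rw [Subgroup.subgroupOf_map_subtype, inf_of_le_left hA]
  have hBup : sylUp hM (B.subtype hB) = B := by
    apply Sylow.ext
    show ((B : Subgroup G).subgroupOf M).map M.subtype = B
    rw [Subgroup.subgroupOf_map_subtype, inf_of_le_left hB]
  have hAB' : A.subtype hA ≠ B.subtype hB := by
    intro h
    apply hAB
    rw [← hAup, ← hBup, h]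
  have hmem : ∀ a : G, ∀ ha : a ∈ (A : Subgroup G) ⊓ (B : Subgroup G),
      (⟨a, hA (Subgroup.mem_inf.mp ha).1⟩ : ↥M) ∈
        ((A.subtype hA : Sylow p ↥M) : Subgroup ↥M) ⊓ ((B.subtype hB : Sylow p ↥M) : Subgroup ↥M) := by
    intro a ha
    refine Subgroup.mem_inf.mpr ⟨?_, ?_⟩
    · rw [Sylow.coe_subtype, Subgroup.mem_subgroupOf]; exact (Subgroup.mem_inf.mp ha).1
    · rw [Sylow.coe_subtype, Subgroup.mem_subgroupOf]; exact (Subgroup.mem_inf.mp ha).2
  have hne' : ((A.subtype hA : Sylow p ↥M) : Subgroup ↥M) ⊓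
      ((B.subtype hB : Sylow p ↥M) : Subgroup ↥M) ≠ ⊥ := by
    intro h
    apply hne
    rw [eq_bot_iff]
    intro a ha
    have ha' := hmem a ha
    rw [h, Subgroup.mem_bot] at ha'
    rw [Subgroup.mem_bot]
    exact congrArg Subtype.val ha'
  obtain ⟨n, c, X, x, hc0, hcn, hall⟩ := hr (A.subtype hA) (B.subtype hB) hAB' hne'
  have key : ∀ i : Fin (n + 1),
      Relation.ReflTransGen (FLink p f M ((A : Subgroup G) ⊓ (B : Subgroup G))) A (sylUp hM (c i)) := by
    intro i
    induction i using Fin.induction with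
    | zero => rw [hc0, hAup]
    | succ i ih =>
      refine Relation.ReflTransGen.tail ih ?_
      obtain ⟨hX1, hX2, hx, hconj, hD⟩ := hall i
      obtain ⟨⟨X₀, ⟨P', F, hF, rfl⟩, hXeq⟩, hc1⟩ := mem_sylowMembers_iff.mp hX1
      obtain ⟨-, hc2⟩ := mem_sylowMembers_iff.mp hX2
      have hPp : IsPGroup p ↥((P' : Subgroup ↥M).map M.subtype) := P'.isPGroup'.map M.subtype
      have hFN := ((hf _ hPp).1 F hF).2
      have hP'X : (P' : Subgroup ↥M) ≤ X i := by
        intro z hz
        rw [← hXeq]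
        show z ∈ (M ⊓ Subgroup.normalizer (F : Set G)).subgroupOf M
        rw [Subgroup.mem_subgroupOf]
        refine Subgroup.mem_inf.mpr ⟨z.2, hFN (Subgroup.le_normalizer ?_)⟩
        exact ⟨z, hz, rfl⟩
      have h1 := sylow_le_of_card_inf P' (c i.castSucc) (X i) hP'X hc1
      have h2 := sylow_le_of_card_inf P' (c i.succ) (X i) hP'X hc2
      have hXmem : ∀ z : ↥M, z ∈ X i → (z : G) ∈ M ⊓ Subgroup.normalizer (F : Set G) := by
        intro z hz
        rw [← hXeq] at hz
        exact Subgroup.mem_subgroupOf.mp hz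
      refine ⟨sylUp hM P', Subgroup.map_subtype_le _, F, hF, (x i : G), hXmem _ hx, ?_, ?_, ?_, ?_⟩
      · rintro y ⟨z, hz, rfl⟩
        exact hXmem z (h1 hz)
      · rintro y ⟨z, hz, rfl⟩
        exact hXmem z (h2 hz)
      · show Cfsg.subgroupConjRight (M.subtype (x i)) ((c i.succ : Subgroup ↥M).map M.subtype) =
          (c i.castSucc : Subgroup ↥M).map M.subtype
        rw [← map_subgroupConjRight, hconj]
      · intro a ha
        exact ⟨_, (Subgroup.mem_inf.mp (hD (hmem a ha))).1, rfl⟩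
  have := key (Fin.last n)
  rwa [hcn, hBup] at this

/-- A chain of links in ambient terms gives a chain in the subgroup. -/
theorem fin_chain_of_rtg [Finite G] {p : ℕ} [Fact p.Prime] {f : Subgroup G → Set (Subgroup G)}
    {M : Subgroup G} (D : Subgroup G) (B : Sylow p G) (hB : (B : Subgroup G) ≤ M) (A : Sylow p G)
    (h : Relation.ReflTransGen (FLink p f M D) A B) :
    ∃ (hA : (A : Subgroup G) ≤ M) (n : ℕ) (c : Fin (n + 1) → Sylow p ↥M)
      (X : Fin n → Subgroup ↥M) (x : Fin n → ↥M),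
      c 0 = A.subtype hA ∧ c (Fin.last n) = B.subtype hB ∧
      ∀ i : Fin n,
        X i ∈ Cfsg.sylowMembers p ((fun X : Subgroup G => X.subgroupOf M) '' Cfsg.functorFamily p f M)
          (c i.castSucc : Subgroup ↥M) ∧
        X i ∈ Cfsg.sylowMembers p ((fun X : Subgroup G => X.subgroupOf M) '' Cfsg.functorFamily p f M)
          (c i.succ : Subgroup ↥M) ∧
        x i ∈ X i ∧
        Cfsg.subgroupConjRight (x i) (c i.succ : Subgroup ↥M) = (c i.castSucc : Subgroup ↥M) ∧
        D.subgroupOf M ≤ (c i.succ : Subgroup ↥M) ⊓ X i := by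
  classical
  induction h using Relation.ReflTransGen.head_induction_on with
  | refl => exact ⟨hB, 0, fun _ => B.subtype hB, Fin.elim0, Fin.elim0, rfl, rfl, fun i => i.elim0⟩
  | @head A C h' _ ih =>
    obtain ⟨hC, n, c, X, x, hc0, hcn, hall⟩ := ih
    obtain ⟨P, hPM, F, hF, x₀, hx₀, hAN, hCN, hconj, hD⟩ := h'
    have hA : (A : Subgroup G) ≤ M := hAN.trans inf_le_left
    have hXmem : (M ⊓ Subgroup.normalizer (F : Set G)).subgroupOf M ∈
        (fun X : Subgroup G => X.subgroupOf M) '' Cfsg.functorFamily p f M := by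
      refine ⟨M ⊓ Subgroup.normalizer (F : Set G), ⟨P.subtype hPM, F, ?_, rfl⟩, rfl⟩
      rw [Sylow.coe_subtype, Subgroup.subgroupOf_map_subtype, inf_of_le_left hPM]
      exact hF
    have hAX : ((A.subtype hA : Sylow p ↥M) : Subgroup ↥M) ≤
        (M ⊓ Subgroup.normalizer (F : Set G)).subgroupOf M := by
      intro z hz
      rw [Sylow.coe_subtype, Subgroup.mem_subgroupOf] at hz
      exact Subgroup.mem_subgroupOf.mpr (hAN hz)
    have hCX : ((C.subtype hC : Sylow p ↥M) : Subgroup ↥M) ≤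
        (M ⊓ Subgroup.normalizer (F : Set G)).subgroupOf M := by
      intro z hz
      rw [Sylow.coe_subtype, Subgroup.mem_subgroupOf] at hz
      exact Subgroup.mem_subgroupOf.mpr (hCN hz)
    refine ⟨hA, n + 1, Fin.cons (A.subtype hA) c,
      Fin.cons ((M ⊓ Subgroup.normalizer (F : Set G)).subgroupOf M) X,
      Fin.cons ⟨x₀, (Subgroup.mem_inf.mp hx₀).1⟩ x, rfl, ?_, ?_⟩
    · rw [← Fin.succ_last, Fin.cons_succ]; exact hcn
    · intro i
      refine Fin.cases ?_ (fun j => ?_) i
      · show (M ⊓ Subgroup.normalizer (F : Set G)).subgroupOf M ∈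
            Cfsg.sylowMembers p _ ((A.subtype hA : Sylow p ↥M) : Subgroup ↥M) ∧
          (M ⊓ Subgroup.normalizer (F : Set G)).subgroupOf M ∈
            Cfsg.sylowMembers p _ ((c 0 : Sylow p ↥M) : Subgroup ↥M) ∧
          (⟨x₀, (Subgroup.mem_inf.mp hx₀).1⟩ : ↥M) ∈ (M ⊓ Subgroup.normalizer (F : Set G)).subgroupOf M ∧
          Cfsg.subgroupConjRight (⟨x₀, (Subgroup.mem_inf.mp hx₀).1⟩ : ↥M)
            ((c 0 : Sylow p ↥M) : Subgroup ↥M) = ((A.subtype hA : Sylow p ↥M) : Subgroup ↥M) ∧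
          D.subgroupOf M ≤ ((c 0 : Sylow p ↥M) : Subgroup ↥M) ⊓
            (M ⊓ Subgroup.normalizer (F : Set G)).subgroupOf M
        rw [hc0]
        refine ⟨mem_sylowMembers_iff.mpr ⟨hXmem, card_inf_of_sylow_le _ _ hAX⟩,
          mem_sylowMembers_iff.mpr ⟨hXmem, card_inf_of_sylow_le _ _ hCX⟩,
          Subgroup.mem_subgroupOf.mpr hx₀, ?_, ?_⟩
        · ext z
          rw [mem_subgroupConjRight, Sylow.coe_subtype, Sylow.coe_subtype, Subgroup.mem_subgroupOf,
            Subgroup.mem_subgroupOf, ← hconj, mem_subgroupConjRight]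
          rfl
        · intro z hz
          rw [Subgroup.mem_subgroupOf] at hz
          refine Subgroup.mem_inf.mpr ⟨?_, hCX ?_⟩
          · rw [Sylow.coe_subtype, Subgroup.mem_subgroupOf]; exact hD hz
          · rw [Sylow.coe_subtype, Subgroup.mem_subgroupOf]; exact hD hz
      · exact hall j

/-- Chains of links in ambient terms make a subgroup of index prime to `p` regular. -/
theorem regular_of_chain [Finite G] {p : ℕ} [Fact p.Prime] {f : Subgroup G → Set (Subgroup G)}
    {M : Subgroup G} (hM : ¬ p ∣ M.index)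
    (h : ∀ A B : Sylow p G, (A : Subgroup G) ≤ M → (B : Subgroup G) ≤ M → A ≠ B →
      (A : Subgroup G) ⊓ (B : Subgroup G) ≠ ⊥ →
      Relation.ReflTransGen (FLink p f M ((A : Subgroup G) ⊓ (B : Subgroup G))) A B) :
    Cfsg.IsFunctorRegular p f M := by
  classical
  intro A' B' hne hint
  have hA : (sylUp hM A' : Subgroup G) ≤ M := Subgroup.map_subtype_le _
  have hB : (sylUp hM B' : Subgroup G) ≤ M := Subgroup.map_subtype_le _
  have hA' : (sylUp hM A').subtype hA = A' := by
    apply Sylow.ext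
    rw [Sylow.coe_subtype]
    exact Subgroup.comap_map_eq_self_of_injective M.subtype_injective _
  have hB' : (sylUp hM B').subtype hB = B' := by
    apply Sylow.ext
    rw [Sylow.coe_subtype]
    exact Subgroup.comap_map_eq_self_of_injective M.subtype_injective _
  have hne2 : sylUp hM A' ≠ sylUp hM B' := by
    intro h2
    apply hne
    rw [← hA', ← hB']
    apply Sylow.ext
    rw [Sylow.coe_subtype, Sylow.coe_subtype, h2]
  have hmem : ∀ z : ↥M, z ∈ (A' : Subgroup ↥M) ⊓ (B' : Subgroup ↥M) →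
      (z : G) ∈ (sylUp hM A' : Subgroup G) ⊓ (sylUp hM B' : Subgroup G) := fun z hz =>
    Subgroup.mem_inf.mpr ⟨⟨z, (Subgroup.mem_inf.mp hz).1, rfl⟩, ⟨z, (Subgroup.mem_inf.mp hz).2, rfl⟩⟩
  have hint2 : (sylUp hM A' : Subgroup G) ⊓ (sylUp hM B' : Subgroup G) ≠ ⊥ := by
    intro h2
    apply hint
    rw [eq_bot_iff]
    intro z hz
    have := hmem z hz
    rw [h2, Subgroup.mem_bot] at this
    rw [Subgroup.mem_bot]
    exact Subtype.ext this
  obtain ⟨hA2, n, c, X, x, hc0, hcn, hall⟩ :=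
    fin_chain_of_rtg _ (sylUp hM B') hB (sylUp hM A') (h _ _ hA hB hne2 hint2)
  refine ⟨n, c, X, x, hc0.trans hA', hcn.trans hB', fun i => ?_⟩
  obtain ⟨h1, h2, h3, h4, h5⟩ := hall i
  refine ⟨h1, h2, h3, h4, le_trans ?_ h5⟩
  intro z hz
  rw [Subgroup.mem_subgroupOf]
  exact hmem z hz

end Cfsg.Agent.Lib.Helper49
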