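import Mathlib
import Cfsg.Prelude.Def_SylowChains
import Cfsg.Agent.Lib.Helper49.SylCtl
import Cfsg.Agent.Lib.Helper49.SylCtl2
import Cfsg.Agent.Lib.Helper49.FunReg

set_option autoImplicit false

namespace Cfsg.Agent.Lib.Helper49

variable {G : Type*} [Group G]

/-- One link of a chain of Sylow subgroups for a family, relative to a subgroup `D`. -/
def SLink (p : ℕ) (𝓚 : Set (Subgroup G)) (D : Subgroup G) (A B : Sylow p G) : Prop :=
  ∃ (X : Subgroup G) (x : G), X ∈ Cfsg.sylowMembers p 𝓚 (A : Subgroup G) ∧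
    X ∈ Cfsg.sylowMembers p 𝓚 (B : Subgroup G) ∧ x ∈ X ∧
    Cfsg.subgroupConjRight x (B : Subgroup G) = (A : Subgroup G) ∧ D ≤ (B : Subgroup G) ⊓ X

theorem SLink.mono {p : ℕ} {𝓚 : Set (Subgroup G)} {D D' : Subgroup G} (hD : D' ≤ D)
    {A B : Sylow p G} (h : SLink p 𝓚 D A B) : SLink p 𝓚 D' A B := by
  obtain ⟨X, x, h1, h2, h3, h4, h5⟩ := h
  exact ⟨X, x, h1, h2, h3, h4, hD.trans h5⟩

theorem fin_chain_of_slink {p : ℕ} {𝓚 : Set (Subgroup G)} (D : Subgroup G) (B A : Sylow p G)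
    (h : Relation.ReflTransGen (SLink p 𝓚 D) A B) :
    ∃ (n : ℕ) (c : Fin (n + 1) → Sylow p G) (X : Fin n → Subgroup G) (x : Fin n → G),
      c 0 = A ∧ c (Fin.last n) = B ∧
      ∀ i : Fin n,
        X i ∈ Cfsg.sylowMembers p 𝓚 (c i.castSucc : Subgroup G) ∧
        X i ∈ Cfsg.sylowMembers p 𝓚 (c i.succ : Subgroup G) ∧
        x i ∈ X i ∧
        Cfsg.subgroupConjRight (x i) (c i.succ : Subgroup G) = (c i.castSucc : Subgroup G) ∧
        D ≤ (c i.succ : Subgroup G) ⊓ X i := by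
  induction h using Relation.ReflTransGen.head_induction_on with
  | refl => exact ⟨0, fun _ => B, Fin.elim0, Fin.elim0, rfl, rfl, fun i => i.elim0⟩
  | @head A C h' _ ih =>
    obtain ⟨n, c, X, x, hc0, hcn, hall⟩ := ih
    obtain ⟨X₀, x₀, h1, h2, h3, h4, h5⟩ := h'
    refine ⟨n + 1, Fin.cons A c, Fin.cons X₀ X, Fin.cons x₀ x, rfl, ?_, ?_⟩
    · rw [← Fin.succ_last, Fin.cons_succ]; exact hcn
    · intro i
      refine Fin.cases ?_ (fun j => ?_) i
      · show X₀ ∈ Cfsg.sylowMembers p 𝓚 (A : Subgroup G) ∧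
          X₀ ∈ Cfsg.sylowMembers p 𝓚 ((c 0 : Sylow p G) : Subgroup G) ∧ x₀ ∈ X₀ ∧
          Cfsg.subgroupConjRight x₀ ((c 0 : Sylow p G) : Subgroup G) = (A : Subgroup G) ∧
          D ≤ ((c 0 : Sylow p G) : Subgroup G) ⊓ X₀
        rw [hc0]
        exact ⟨h1, h2, h3, h4, h5⟩
      · exact hall j

/-- Chains of links between any two distinct Sylow subgroups meeting nontrivially give control
of Sylow intersections. -/
theorem controls_of_rtg {p : ℕ} {𝓚 : Set (Subgroup G)}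
    (h : ∀ S T : Sylow p G, S ≠ T → (S : Subgroup G) ⊓ (T : Subgroup G) ≠ ⊥ →
      Relation.ReflTransGen (SLink p 𝓚 ((S : Subgroup G) ⊓ (T : Subgroup G))) S T) :
    Cfsg.ControlsSylowIntersections p 𝓚 := by
  intro S T hST hne
  exact fin_chain_of_slink _ T S (h S T hST hne)

/-- Every `p`-local subgroup of a finite group lies in a maximal `p`-local subgroup. -/
theorem exists_maximal_plocal_ge [Finite G] {p : ℕ} {N : Subgroup G} (hN : Cfsg.IsPLocal p N) :
    ∃ M : Subgroup G, Cfsg.IsMaximalPLocal p M ∧ N ≤ M := by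
  obtain ⟨M, hNM, hmax⟩ := Set.Finite.exists_le_maximal
    (s := {L : Subgroup G | Cfsg.IsPLocal p L}) (Set.toFinite _) hN
  exact ⟨M, ⟨hmax.1, fun L hL hML => le_antisymm (hmax.2 hL hML) hML⟩, hNM⟩

/-- A `p`-subgroup of `M` lies in a Sylow subgroup of the group meeting `M` in a Sylow subgroup
of `M`. -/
theorem exists_sylow_inf_card [Finite G] {p : ℕ} [Fact p.Prime] {K M : Subgroup G}
    (hK : IsPGroup p ↥K) (hKM : K ≤ M) :
    ∃ R : Sylow p G, K ≤ (R : Subgroup G) ∧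
      Nat.card ↥((R : Subgroup G) ⊓ M) = p ^ (Nat.card ↥M).factorization p := by
  have hK' : IsPGroup p ↥(K.subgroupOf M) := hK.comap_of_injective M.subtype M.subtype_injective
  obtain ⟨Pi₀, hPi₀⟩ := hK'.exists_le_sylow
  obtain ⟨R, hR⟩ := (Pi₀.isPGroup'.map M.subtype).exists_le_sylow
  refine ⟨R, ?_, ?_⟩
  · intro k hk
    exact hR ⟨⟨k, hKM hk⟩, hPi₀ (Subgroup.mem_subgroupOf.mpr hk), rfl⟩
  · have h1 : IsPGroup p ↥(((R : Subgroup G) ⊓ M).subgroupOf M) :=
      (R.isPGroup'.to_le inf_le_left).comap_of_injective M.subtype M.subtype_injective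
    have h2 : (Pi₀ : Subgroup ↥M) ≤ ((R : Subgroup G) ⊓ M).subgroupOf M := by
      intro z hz
      rw [Subgroup.mem_subgroupOf]
      exact Subgroup.mem_inf.mpr ⟨hR ⟨z, hz, rfl⟩, z.2⟩
    have h3 := Pi₀.is_maximal' h1 h2
    rw [← Pi₀.card_eq_multiplicity, ← h3]
    exact (Nat.card_congr (Subgroup.subgroupOfEquivOfLe inf_le_right).toEquiv).symm

/-- Normalizers grow in `p`-groups. -/
theorem card_lt_card_inf_normalizer [Finite G] {p : ℕ} [Fact p.Prime] {D K : Subgroup G}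
    (hK : IsPGroup p ↥K) (hDK : D ≤ K) (hne : D ≠ K) :
    Nat.card ↥D < Nat.card ↥(K ⊓ Subgroup.normalizer (D : Set G)) := by
  have hp : p.Prime := Fact.out
  obtain ⟨m, hm⟩ := IsPGroup.iff_card.mp hK
  obtain ⟨n, hn⟩ := IsPGroup.iff_card.mp (hK.to_le hDK)
  have hlt : Nat.card ↥D < Nat.card ↥K := by
    by_contra hcon
    exact hne (Subgroup.eq_of_le_of_card_ge hDK (not_lt.mp hcon))
  have hnm : n < m := by
    rw [hm, hn] at hlt
    exact (Nat.pow_lt_pow_iff_right hp.one_lt).mp hlt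
  have h1 : Nat.card ↥(D.subgroupOf K) = p ^ n := by
    rw [← hn]; exact Nat.card_congr (Subgroup.subgroupOfEquivOfLe hDK).toEquiv
  have h2 : p ^ (n + 1) ∣ Nat.card ↥K := by
    rw [hm]; exact pow_dvd_pow p hnm
  have h3 := Sylow.prime_pow_dvd_card_normalizer h2 h1
  rw [← Subgroup.subgroupOf_normalizer_eq hDK] at h3
  have h4 : Nat.card ↥((Subgroup.normalizer (D : Set G)).subgroupOf K) =
      Nat.card ↥(K ⊓ Subgroup.normalizer (D : Set G)) := by
    rw [inf_comm, ← Subgroup.inf_subgroupOf_right]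
    exact Nat.card_congr (Subgroup.subgroupOfEquivOfLe inf_le_right).toEquiv
  rw [h4] at h3
  have h5 := Nat.le_of_dvd Nat.card_pos h3
  rw [hn]
  exact lt_of_lt_of_le (Nat.pow_lt_pow_right hp.one_lt (Nat.lt_succ_self n)) h5

/-- Sylow subgroups of `M` cut out by Sylow subgroups of the group are conjugate in `M`. -/
theorem exists_conj_of_card_inf [Finite G] {p : ℕ} [Fact p.Prime] {R R' M : Subgroup G}
    (h1 : Nat.card ↥(R ⊓ M) = p ^ (Nat.card ↥M).factorization p)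
    (h2 : Nat.card ↥(R' ⊓ M) = p ^ (Nat.card ↥M).factorization p) :
    ∃ x ∈ M, Cfsg.subgroupConjRight x (R' ⊓ M) = R ⊓ M := by
  have hc1 : Nat.card ↥((R ⊓ M).subgroupOf M) = p ^ (Nat.card ↥M).factorization p := by
    rw [← h1]; exact Nat.card_congr (Subgroup.subgroupOfEquivOfLe inf_le_right).toEquiv
  have hc2 : Nat.card ↥((R' ⊓ M).subgroupOf M) = p ^ (Nat.card ↥M).factorization p := by
    rw [← h2]; exact Nat.card_congr (Subgroup.subgroupOfEquivOfLe inf_le_right).toEquiv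
  obtain ⟨m, hm⟩ := MulAction.exists_smul_eq ↥M (Sylow.ofCard _ hc2) (Sylow.ofCard _ hc1)
  have h3 := congrArg (fun Q : Sylow p ↥M => (Q : Subgroup ↥M).map M.subtype) hm
  simp only [coe_smul_sylow, map_subgroupConjRight, Sylow.coe_ofCard,
    Subgroup.subgroupOf_map_subtype, inf_assoc, inf_idem] at h3
  exact ⟨M.subtype m⁻¹, (m⁻¹).2, h3⟩

/-- Data of a link of a chain in a regular subgroup, in ambient terms. -/
theorem regular_link_data [Finite G] {p : ℕ} [Fact p.Prime] {f : Subgroup G → Set (Subgroup G)}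
    (hf : Cfsg.IsNormalizerFunctor p f) {M : Subgroup G} (c₁ c₂ : Sylow p ↥M) (X : Subgroup ↥M)
    (x : ↥M)
    (h1 : X ∈ Cfsg.sylowMembers p
      ((fun X : Subgroup G => X.subgroupOf M) '' Cfsg.functorFamily p f M) (c₁ : Subgroup ↥M))
    (h2 : X ∈ Cfsg.sylowMembers p
      ((fun X : Subgroup G => X.subgroupOf M) '' Cfsg.functorFamily p f M) (c₂ : Subgroup ↥M))
    (hx : x ∈ X) :
    ∃ P' : Sylow p ↥M, ∃ F ∈ f ((P' : Subgroup ↥M).map M.subtype),
      (c₁ : Subgroup ↥M).map M.subtype ≤ Subgroup.normalizer (F : Set G) ∧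
      (c₂ : Subgroup ↥M).map M.subtype ≤ Subgroup.normalizer (F : Set G) ∧
      (x : G) ∈ Subgroup.normalizer (F : Set G) := by
  obtain ⟨⟨X₀, ⟨P', F, hF, rfl⟩, hXeq⟩, hc1⟩ := mem_sylowMembers_iff.mp h1
  obtain ⟨-, hc2⟩ := mem_sylowMembers_iff.mp h2
  have hPp : IsPGroup p ↥((P' : Subgroup ↥M).map M.subtype) := P'.isPGroup'.map M.subtype
  have hFN := ((hf _ hPp).1 F hF).2
  have hP'X : (P' : Subgroup ↥M) ≤ X := by
    intro z hz
    rw [← hXeq]
    show z ∈ (M ⊓ Subgroup.normalizer (F : Set G)).subgroupOf M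
    rw [Subgroup.mem_subgroupOf]
    refine Subgroup.mem_inf.mpr ⟨z.2, hFN (Subgroup.le_normalizer ?_)⟩
    exact ⟨z, hz, rfl⟩
  have k1 := sylow_le_of_card_inf P' c₁ X hP'X hc1
  have k2 := sylow_le_of_card_inf P' c₂ X hP'X hc2
  have hXmem : ∀ z : ↥M, z ∈ X → (z : G) ∈ Subgroup.normalizer (F : Set G) := by
    intro z hz
    rw [← hXeq] at hz
    exact (Subgroup.mem_inf.mp (Subgroup.mem_subgroupOf.mp hz)).2
  refine ⟨P', F, hF, ?_, ?_, hXmem x hx⟩
  · rintro y ⟨z, hz, rfl⟩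
    exact hXmem z (k1 hz)
  · rintro y ⟨z, hz, rfl⟩
    exact hXmem z (k2 hz)

/-- Normalizers of members of `f P`, `P` a Sylow subgroup of the group, are in the functor
family of `⊤`. -/
theorem functorFamily_top_mem [Finite G] {p : ℕ} [Fact p.Prime] {f : Subgroup G → Set (Subgroup G)}
    {Pi₀ F : Subgroup G} (hPi₀ : Nat.card ↥Pi₀ = p ^ (Nat.card G).factorization p) (hF : F ∈ f Pi₀) :
    (⊤ : Subgroup G) ⊓ Subgroup.normalizer (F : Set G) ∈ Cfsg.functorFamily p f ⊤ := by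
  have h1 : Nat.card ↥(Pi₀.subgroupOf ⊤) = p ^ (Nat.card ↥(⊤ : Subgroup G)).factorization p := by
    rw [Subgroup.card_top, ← hPi₀]
    exact Nat.card_congr (Subgroup.subgroupOfEquivOfLe le_top).toEquiv
  refine ⟨Sylow.ofCard _ h1, F, ?_, rfl⟩
  rw [Sylow.coe_ofCard, Subgroup.subgroupOf_map_subtype, inf_of_le_left le_top]
  exact hF

end Cfsg.Agent.Lib.Helper49
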