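import Mathlib
import Cfsg.Prelude.Def_SylowChains
import Cfsg.Agent.Lib.Helper49.SylCtl
import Cfsg.Agent.Lib.Helper49.SylCtl2
import Cfsg.Agent.Lib.Helper49.FunReg
import Cfsg.Agent.Lib.Helper49.FunReg2

set_option autoImplicit false

namespace Cfsg.Agent.Lib.Helper49

variable {G : Type*} [Group G]

/-- The inner induction of the Alperin-type theorem for the family of normalizers `N_G(F)`,
`F ∈ f P`, `P` Sylow, together with the singular maximal `p`-locals. -/
theorem funreg_inner_claim [Finite G] {p : ℕ} [Fact p.Prime] {f : Subgroup G → Set (Subgroup G)}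
    (hf : Cfsg.IsNormalizerFunctor p f)
    (hf1 : ∀ P : Subgroup G, IsPGroup p ↥P → P ≠ ⊥ → ∀ F ∈ f P, F ≠ ⊥)
    (D : Subgroup G) (hD : D ≠ ⊥)
    (IHD : ∀ A B : Sylow p G, D ≤ (A : Subgroup G) ⊓ (B : Subgroup G) →
      Nat.card ↥D < Nat.card ↥((A : Subgroup G) ⊓ (B : Subgroup G)) →
      Relation.ReflTransGen (SLink p (Cfsg.functorFamily p f ⊤ ∪
        {M | Cfsg.IsMaximalPLocal p M ∧ ¬ Cfsg.IsFunctorRegular p f M}) D) A B) :
    ∀ k : ℕ, ∀ (M : Subgroup G) (R R' : Sylow p G), Cfsg.IsMaximalPLocal p M →
      Nat.card G - Nat.card ↥((R : Subgroup G) ⊓ M) = k →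
      Nat.card ↥((R : Subgroup G) ⊓ M) = p ^ (Nat.card ↥M).factorization p →
      Nat.card ↥((R' : Subgroup G) ⊓ M) = p ^ (Nat.card ↥M).factorization p →
      D ≤ (R : Subgroup G) ⊓ M → D ≤ (R' : Subgroup G) ⊓ M →
      Nat.card ↥D < Nat.card ↥((R : Subgroup G) ⊓ M) →
      Relation.ReflTransGen (SLink p (Cfsg.functorFamily p f ⊤ ∪
        {M | Cfsg.IsMaximalPLocal p M ∧ ¬ Cfsg.IsFunctorRegular p f M}) D) R R' := by
  classical
  have hp : p.Prime := Fact.out
  intro k
  induction k using Nat.strong_induction_on with
  | _ k ih =>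
    intro M R R' hM hk h1 h2 hDR hDR' hlt
    by_cases hreg : Cfsg.IsFunctorRegular p f M
    · -- regular case
      have hc1 : Nat.card ↥(((R : Subgroup G) ⊓ M).subgroupOf M) =
          p ^ (Nat.card ↥M).factorization p := by
        rw [← h1]; exact Nat.card_congr (Subgroup.subgroupOfEquivOfLe inf_le_right).toEquiv
      have hc2 : Nat.card ↥(((R' : Subgroup G) ⊓ M).subgroupOf M) =
          p ^ (Nat.card ↥M).factorization p := by
        rw [← h2]; exact Nat.card_congr (Subgroup.subgroupOfEquivOfLe inf_le_right).toEquiv
      have hP₁map : ((Sylow.ofCard _ hc1 : Sylow p ↥M) : Subgroup ↥M).map M.subtype =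
          (R : Subgroup G) ⊓ M := by
        rw [Sylow.coe_ofCard, Subgroup.subgroupOf_map_subtype, inf_assoc, inf_idem]
      have hP₂map : ((Sylow.ofCard _ hc2 : Sylow p ↥M) : Subgroup ↥M).map M.subtype =
          (R' : Subgroup G) ⊓ M := by
        rw [Sylow.coe_ofCard, Subgroup.subgroupOf_map_subtype, inf_assoc, inf_idem]
      by_cases hPP : (Sylow.ofCard _ hc1 : Sylow p ↥M) = Sylow.ofCard _ hc2
      · have e : (R : Subgroup G) ⊓ M = (R' : Subgroup G) ⊓ M := by
          rw [← hP₁map, ← hP₂map, hPP]
        have hle : (R : Subgroup G) ⊓ M ≤ (R : Subgroup G) ⊓ (R' : Subgroup G) :=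
          le_inf inf_le_left (e ▸ inf_le_left)
        exact IHD R R' (hDR.trans hle) (lt_of_lt_of_le hlt (Subgroup.card_le_of_le hle))
      · have hDmem : ∀ d ∈ D, ∀ hd : d ∈ M, (⟨d, hd⟩ : ↥M) ∈
            ((Sylow.ofCard _ hc1 : Sylow p ↥M) : Subgroup ↥M) ⊓
              ((Sylow.ofCard _ hc2 : Sylow p ↥M) : Subgroup ↥M) := by
          intro d hd hdM
          rw [Sylow.coe_ofCard, Sylow.coe_ofCard]
          exact Subgroup.mem_inf.mpr ⟨Subgroup.mem_subgroupOf.mpr (hDR hd),
            Subgroup.mem_subgroupOf.mpr (hDR' hd)⟩
        have hne : ((Sylow.ofCard _ hc1 : Sylow p ↥M) : Subgroup ↥M) ⊓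
              ((Sylow.ofCard _ hc2 : Sylow p ↥M) : Subgroup ↥M) ≠ ⊥ := by
          intro h0
          apply hD
          rw [eq_bot_iff]
          intro d hd
          have h3 := hDmem d hd (hDR hd).2
          rw [h0, Subgroup.mem_bot] at h3
          rw [Subgroup.mem_bot]
          exact congrArg Subtype.val h3
        obtain ⟨n, c, X, x, hc0, hcn, hall⟩ := hreg _ _ hPP hne
        have hDc : ∀ i : Fin (n + 1), D ≤ (c i : Subgroup ↥M).map M.subtype := by
          intro i
          refine Fin.cases ?_ (fun j => ?_) i
          · rw [hc0, hP₁map]; exact hDR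
          · intro d hd
            have h3 := (hall j).2.2.2.2 (hDmem d hd (hDR hd).2)
            exact ⟨_, (Subgroup.mem_inf.mp h3).1, rfl⟩
        have hcard : ∀ i : Fin (n + 1), Nat.card ↥((c i : Subgroup ↥M).map M.subtype) =
            p ^ (Nat.card ↥M).factorization p := by
          intro i
          rw [Subgroup.card_map_of_injective M.subtype_injective]
          exact (c i).card_eq_multiplicity
        have hDlt : ∀ i : Fin (n + 1), Nat.card ↥D < Nat.card ↥((c i : Subgroup ↥M).map M.subtype) := by
          intro i
          rw [hcard, ← h1]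
          exact hlt
        have key : ∀ i : Fin (n + 1), ∀ Ri : Sylow p G,
            (c i : Subgroup ↥M).map M.subtype ≤ (Ri : Subgroup G) →
            Relation.ReflTransGen (SLink p (Cfsg.functorFamily p f ⊤ ∪
              {M | Cfsg.IsMaximalPLocal p M ∧ ¬ Cfsg.IsFunctorRegular p f M}) D) R Ri := by
          intro i
          induction i using Fin.induction with
          | zero =>
            intro R0 hR0
            rw [hc0, hP₁map] at hR0
            have hle : (R : Subgroup G) ⊓ M ≤ (R : Subgroup G) ⊓ (R0 : Subgroup G) :=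
              le_inf inf_le_left hR0
            exact IHD R R0 (hDR.trans hle) (lt_of_lt_of_le hlt (Subgroup.card_le_of_le hle))
          | succ i ih2 =>
            intro Rb hRb
            obtain ⟨Ra, hRa⟩ := ((c i.castSucc).isPGroup'.map M.subtype).exists_le_sylow
            refine (ih2 Ra hRa).trans ?_
            obtain ⟨hX1, hX2, hx, hconj, -⟩ := hall i
            obtain ⟨P', F, hF, hQ1, hQ2, hxN⟩ :=
              regular_link_data hf (c i.castSucc) (c i.succ) (X i) (x i) hX1 hX2 hx
            have hP'card : Nat.card ↥((P' : Subgroup ↥M).map M.subtype) =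
                p ^ (Nat.card ↥M).factorization p := by
              rw [Subgroup.card_map_of_injective M.subtype_injective]
              exact P'.card_eq_multiplicity
            by_cases hfull : (Nat.card ↥M).factorization p = (Nat.card G).factorization p
            · have eRa : (c i.castSucc : Subgroup ↥M).map M.subtype = (Ra : Subgroup G) := by
                apply Subgroup.eq_of_le_of_card_ge hRa
                rw [hcard, hfull, Ra.card_eq_multiplicity]
              have eRb : (c i.succ : Subgroup ↥M).map M.subtype = (Rb : Subgroup G) := by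
                apply Subgroup.eq_of_le_of_card_ge hRb
                rw [hcard, hfull, Rb.card_eq_multiplicity]
              rw [hfull] at hP'card
              have hmemF := functorFamily_top_mem hP'card hF
              refine Relation.ReflTransGen.single
                ⟨⊤ ⊓ Subgroup.normalizer (F : Set G), (x i : G), ?_, ?_, ?_, ?_, ?_⟩
              · refine mem_sylowMembers_iff.mpr ⟨Or.inl hmemF, card_inf_of_sylow_le Ra _ ?_⟩
                rw [← eRa]
                exact le_inf le_top hQ1
              · refine mem_sylowMembers_iff.mpr ⟨Or.inl hmemF, card_inf_of_sylow_le Rb _ ?_⟩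
                rw [← eRb]
                exact le_inf le_top hQ2
              · exact Subgroup.mem_inf.mpr ⟨Subgroup.mem_top _, hxN⟩
              · rw [← eRa, ← eRb]
                show Cfsg.subgroupConjRight (M.subtype (x i)) _ = _
                rw [← map_subgroupConjRight, hconj]
              · rw [← eRb]
                exact le_inf (hDc i.succ) ((hDc i.succ).trans (le_inf le_top hQ2))
            · have hG0 : Nat.card G ≠ 0 := Nat.card_pos.ne'
              have hle0 : (Nat.card ↥M).factorization p ≤ (Nat.card G).factorization p :=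
                (hp.pow_dvd_iff_le_factorization hG0).mp
                  ((Nat.ordProj_dvd _ _).trans (Subgroup.card_subgroup_dvd_card M))
              have hlt2 : (Nat.card ↥M).factorization p < (Nat.card G).factorization p :=
                lt_of_le_of_ne hle0 hfull
              have hP'p : IsPGroup p ↥((P' : Subgroup ↥M).map M.subtype) :=
                P'.isPGroup'.map M.subtype
              have hP'ne : (P' : Subgroup ↥M).map M.subtype ≠ ⊥ := by
                intro h0
                have h3 : Nat.card ↥D < 1 := by
                  have h4 := hlt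
                  rw [h1, ← hP'card, h0, Subgroup.card_bot] at h4
                  exact h4
                have : 0 < Nat.card ↥D := Nat.card_pos
                omega
              have hF1 : F ≠ ⊥ := hf1 _ hP'p hP'ne F hF
              have hFle := ((hf _ hP'p).1 F hF).1
              have hFN := ((hf _ hP'p).1 F hF).2
              have hFp : IsPGroup p ↥F := hP'p.to_le hFle
              obtain ⟨M', hM'max, hN'M'⟩ :=
                exists_maximal_plocal_ge (p := p) (N := Subgroup.normalizer (F : Set G))
                  ⟨F, hFp, hF1, rfl⟩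
              have hdvd1 : p ^ ((Nat.card ↥M).factorization p + 1) ∣ Nat.card G :=
                (hp.pow_dvd_iff_le_factorization hG0).mpr hlt2
              have hdvd2 := Sylow.prime_pow_dvd_card_normalizer hdvd1 hP'card
              have hdvd3 : p ^ ((Nat.card ↥M).factorization p + 1) ∣ Nat.card ↥M' :=
                hdvd2.trans (Subgroup.card_dvd_of_le (hFN.trans hN'M'))
              have hM'0 : Nat.card ↥M' ≠ 0 := Nat.card_pos.ne'
              have hlt3 : (Nat.card ↥M).factorization p + 1 ≤ (Nat.card ↥M').factorization p :=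
                (hp.pow_dvd_iff_le_factorization hM'0).mp hdvd3
              obtain ⟨Rs, hRs1, hRs2⟩ := exists_sylow_inf_card
                ((c i.castSucc).isPGroup'.map M.subtype) (hQ1.trans hN'M')
              obtain ⟨Rt, hRt1, hRt2⟩ := exists_sylow_inf_card
                ((c i.succ).isPGroup'.map M.subtype) (hQ2.trans hN'M')
              have step1 := IHD Ra Rs ((hDc i.castSucc).trans (le_inf hRa hRs1))
                (lt_of_lt_of_le (hDlt i.castSucc) (Subgroup.card_le_of_le (le_inf hRa hRs1)))
              have step3 := IHD Rt Rb ((hDc i.succ).trans (le_inf hRt1 hRb))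
                (lt_of_lt_of_le (hDlt i.succ) (Subgroup.card_le_of_le (le_inf hRt1 hRb)))
              have hle1 : (c i.castSucc : Subgroup ↥M).map M.subtype ≤ (Rs : Subgroup G) ⊓ M' :=
                le_inf hRs1 (hQ1.trans hN'M')
              have hle2 : (c i.succ : Subgroup ↥M).map M.subtype ≤ (Rt : Subgroup G) ⊓ M' :=
                le_inf hRt1 (hQ2.trans hN'M')
              have hpow : p ^ (Nat.card ↥M).factorization p < p ^ (Nat.card ↥M').factorization p :=
                Nat.pow_lt_pow_right hp.one_lt hlt3
              have hk' : Nat.card G - Nat.card ↥((Rs : Subgroup G) ⊓ M') < k := by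
                have h5 : Nat.card ↥((Rs : Subgroup G) ⊓ M') ≤ Nat.card G :=
                  Subgroup.card_le_card_group _
                rw [hRs2] at h5 ⊢
                rw [h1] at hk
                omega
              have step2 := ih _ hk' M' Rs Rt hM'max rfl hRs2 hRt2
                ((hDc i.castSucc).trans hle1) ((hDc i.succ).trans hle2)
                (lt_of_lt_of_le (hDlt i.castSucc) (Subgroup.card_le_of_le hle1))
              exact step1.trans (step2.trans step3)
        have hlast := key (Fin.last n) R'
        rw [hcn, hP₂map] at hlast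
        exact hlast inf_le_left
    · -- singular case
      have hMK : M ∈ Cfsg.functorFamily p f ⊤ ∪
          {M | Cfsg.IsMaximalPLocal p M ∧ ¬ Cfsg.IsFunctorRegular p f M} := Or.inr ⟨hM, hreg⟩
      obtain ⟨x, hxM, hx⟩ := exists_conj_of_card_inf h1 h2
      have hR'' : ((x⁻¹ • R' : Sylow p G) : Subgroup G) =
          Cfsg.subgroupConjRight x (R' : Subgroup G) := coe_inv_smul_sylow x R'
      have e : ((x⁻¹ • R' : Sylow p G) : Subgroup G) ⊓ M = (R : Subgroup G) ⊓ M := by
        rw [hR'', ← hx, subgroupConjRight_inf, subgroupConjRight_of_mem hxM]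
      have hle : (R : Subgroup G) ⊓ M ≤ (R : Subgroup G) ⊓ ((x⁻¹ • R' : Sylow p G) : Subgroup G) :=
        le_inf inf_le_left (e ▸ inf_le_left)
      have s1 := IHD R (x⁻¹ • R') (hDR.trans hle) (lt_of_lt_of_le hlt (Subgroup.card_le_of_le hle))
      refine s1.tail ⟨M, x, mem_sylowMembers_iff.mpr ⟨hMK, ?_⟩,
        mem_sylowMembers_iff.mpr ⟨hMK, h2⟩, hxM, hR''.symm, hDR'⟩
      rw [e]
      exact h1

end Cfsg.Agent.Lib.Helper49
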