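import Mathlib

set_option autoImplicit false

namespace Cfsg.Agent.Lib.Helper49

/-- If every orbit has cardinality divisible by `d`, so has the whole set. -/
theorem dvd_card_of_dvd_orbits {S β : Type*} [Group S] [MulAction S β] [Finite β] (d : ℕ)
    (h : ∀ b : β, d ∣ Nat.card (MulAction.orbit S b)) : d ∣ Nat.card β := by
  classical
  have : Fintype (MulAction.orbitRel.Quotient S β) := Fintype.ofFinite _
  rw [Nat.card_congr (MulAction.selfEquivSigmaOrbits S β), Nat.card_sigma]
  exact Finset.dvd_sum (fun ω _ => h _)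

/-- The sign of an involution with `4 * F` fixed points on a set of `2 * m` points, `m` odd. -/
theorem sign_involution {α : Type*} [Fintype α] [DecidableEq α] (σ : Equiv.Perm α)
    (hσ : σ ^ 2 = 1) (m F : ℕ) (hm : Odd m) (hcard : Fintype.card α = 2 * m)
    (hF : Nat.card (Function.fixedPoints σ) = 4 * F) : Equiv.Perm.sign σ = -1 := by
  have hct : σ.cycleType = Multiset.replicate (Multiset.card σ.cycleType) 2 := by
    rw [Multiset.eq_replicate_card]
    intro n hn
    have h1 : n ∣ 2 := dvd_trans (Equiv.Perm.dvd_of_mem_cycleType hn) (orderOf_dvd_of_pow_eq_one hσ)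
    have h2 : 2 ≤ n := Equiv.Perm.two_le_of_mem_cycleType hn
    exact le_antisymm (Nat.le_of_dvd (by norm_num) h1) h2
  rw [Equiv.Perm.sign_of_cycleType_eq_replicate (by norm_num) hct]
  have hF' : Fintype.card (Function.fixedPoints σ) = 4 * F := by
    rw [← Nat.card_eq_fintype_card]; exact hF
  rw [if_neg (by decide), hcard, hF']
  have hle : 4 * F ≤ 2 * m := by
    rw [← hcard, ← hF']
    exact Fintype.card_subtype_le _
  have h3 : (2 * m - 4 * F) / 2 = m - 2 * F := by omega
  rw [h3]
  have h4 : Odd (m - 2 * F) := by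
    obtain ⟨k, hk⟩ := hm
    exact ⟨k - F, by omega⟩
  exact h4.neg_one_pow

/-- An element acting as an odd permutation gives a subgroup of index two. -/
theorem exists_index_two_of_sign {G α : Type*} [Group G] [MulAction G α] [Fintype α]
    [DecidableEq α] (z : G) (hz : Equiv.Perm.sign (MulAction.toPerm z : Equiv.Perm α) = -1) :
    ∃ H : Subgroup G, H.index = 2 := by
  set f : G →* ℤˣ := (Equiv.Perm.sign).comp (MulAction.toPermHom G α) with hf
  refine ⟨f.ker, ?_⟩
  rw [Subgroup.index_ker]
  have hrange : f.range = ⊤ := by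
    rw [eq_top_iff]
    intro u _
    rcases Int.units_eq_one_or u with rfl | rfl
    · exact f.range.one_mem
    · exact ⟨z, hz⟩
  rw [hrange, Subgroup.card_top, Nat.card_eq_fintype_card, Fintype.card_units_int]

end Cfsg.Agent.Lib.Helper49
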