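import Mathlib

/-!
The trace (norm) map of a group action on an abelian group relative to a subgroup of finite
index, and the resulting direct decomposition (helper49).
-/

set_option autoImplicit false

namespace Cfsg.Agent.Lib.Helper49

section Trace

variable {Y M : Type*} [Group Y] [CommGroup M] [MulDistribMulAction Y M]

/-- The trace map `z ↦ ∏_{q ∈ Y/Δ} q • z` (with chosen coset representatives). -/
noncomputable def traceHom (Δ : Subgroup Y) [Fintype (Y ⧸ Δ)] : M →* M where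
  toFun z := ∏ q : Y ⧸ Δ, (Quotient.out q : Y) • z
  map_one' := by simp
  map_mul' a b := by simp [smul_mul', Finset.prod_mul_distrib]

theorem traceHom_apply (Δ : Subgroup Y) [Fintype (Y ⧸ Δ)] (z : M) :
    traceHom Δ z = ∏ q : Y ⧸ Δ, (Quotient.out q : Y) • z := rfl

/-- The trace of a `Δ`-fixed element is `Y`-fixed. -/
theorem smul_traceHom (Δ : Subgroup Y) [Fintype (Y ⧸ Δ)] (z : M) (hz : ∀ s ∈ Δ, s • z = z)
    (m : Y) : m • traceHom Δ z = traceHom Δ z := by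
  rw [traceHom_apply]
  have h1 : m • ∏ q : Y ⧸ Δ, (Quotient.out q : Y) • z =
      ∏ q : Y ⧸ Δ, m • ((Quotient.out q : Y) • z) :=
    map_prod (MulDistribMulAction.toMonoidHom M m) _ _
  rw [h1]
  have h2 : ∀ q : Y ⧸ Δ, m • ((Quotient.out q : Y) • z) = (Quotient.out (m • q) : Y) • z := by
    intro q
    have h3 : ((m * Quotient.out q : Y) : Y ⧸ Δ) = ((Quotient.out (m • q) : Y) : Y ⧸ Δ) := by
      rw [QuotientGroup.out_eq']
      conv_rhs => rw [← QuotientGroup.out_eq' q]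
      rfl
    have h4 : (m * Quotient.out q)⁻¹ * Quotient.out (m • q) ∈ Δ := QuotientGroup.eq.mp h3
    have h5 : (Quotient.out (m • q) : Y) =
        (m * Quotient.out q) * ((m * Quotient.out q)⁻¹ * Quotient.out (m • q)) := by group
    rw [h5, mul_smul, hz _ h4, mul_smul]
  simp_rw [h2]
  exact Equiv.prod_comp (MulAction.toPerm m) (fun q : Y ⧸ Δ => (Quotient.out q : Y) • z)

/-- The trace of a `Y`-fixed element is its `|Y : Δ|`-th power. -/
theorem traceHom_eq_pow (Δ : Subgroup Y) [Fintype (Y ⧸ Δ)] (z : M) (hz : ∀ g : Y, g • z = z) :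
    traceHom Δ z = z ^ Fintype.card (Y ⧸ Δ) := by
  rw [traceHom_apply]
  simp [hz]

end Trace

open scoped IsMulCommutative in
/-- Direct decomposition via the trace: let `S ≤ N` with `|N : S|` prime to `p`, `S` a `p`-group,
`A ≤ S` abelian and normalized by `N`, `Z ≤ A` centralized by `S`, and `W ≤ Z` the set of
elements of `A` centralized by `N`. Then `W` has a complement in `Z`. -/
theorem exists_complement_of_trace {G : Type*} [Group G] [Finite G] {p : ℕ} [Fact p.Prime]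
    (S N A Z W : Subgroup G) (hSp : IsPGroup p ↥S) (hidx : ¬ p ∣ S.relIndex N)
    (hAS : A ≤ S) (hAc : ∀ a ∈ A, ∀ b ∈ A, a * b = b * a)
    (hAN : ∀ n ∈ N, ∀ a ∈ A, n * a * n⁻¹ ∈ A)
    (hZA : Z ≤ A) (hZS : ∀ z ∈ Z, ∀ s ∈ S, s * z = z * s)
    (hWZ : W ≤ Z) (hWN : ∀ w ∈ W, ∀ n ∈ N, n * w = w * n)
    (hWmem : ∀ a ∈ A, (∀ n ∈ N, n * a * n⁻¹ = a) → a ∈ W) :
    ∃ K : Subgroup G, K ≤ Z ∧ W ⊓ K = ⊥ ∧ W ⊔ K = Z := by
  classical
  have : IsMulCommutative ↥A := ⟨⟨fun a b => Subtype.ext (hAc a a.2 b b.2)⟩⟩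
  letI act : MulDistribMulAction ↥N ↥A :=
    { smul := fun n a => ⟨(n : G) * (a : G) * (n : G)⁻¹, hAN n n.2 a a.2⟩
      one_smul := fun a => Subtype.ext (by
        show ((1 : ↥N) : G) * (a : G) * ((1 : ↥N) : G)⁻¹ = a
        simp)
      mul_smul := fun m n a => Subtype.ext (by
        show ((m : G) * (n : G)) * (a : G) * ((m : G) * (n : G))⁻¹ =
          (m : G) * ((n : G) * (a : G) * (n : G)⁻¹) * (m : G)⁻¹
        group)
      smul_mul := fun n a b => Subtype.ext (by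
        show (n : G) * ((a : G) * (b : G)) * (n : G)⁻¹ =
          ((n : G) * (a : G) * (n : G)⁻¹) * ((n : G) * (b : G) * (n : G)⁻¹)
        group)
      smul_one := fun n => Subtype.ext (by
        show (n : G) * ((1 : ↥A) : G) * (n : G)⁻¹ = ((1 : ↥A) : G)
        simp) }
  have hsmul : ∀ (n : ↥N) (a : ↥A), ((n • a : ↥A) : G) = (n : G) * (a : G) * (n : G)⁻¹ :=
    fun _ _ => rfl
  letI : Fintype (↥N ⧸ S.subgroupOf N) := Fintype.ofFinite _
  have hm : Fintype.card (↥N ⧸ S.subgroupOf N) = S.relIndex N := by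
    rw [← Nat.card_eq_fintype_card]; rfl
  have hcop : ∀ a : ↥A, (Fintype.card (↥N ⧸ S.subgroupOf N)).Coprime (orderOf a) := by
    intro a
    obtain ⟨k, hk⟩ := hSp ⟨(a : G), hAS a.2⟩
    have hk' : a ^ p ^ k = 1 := by
      apply Subtype.ext
      have := congrArg Subtype.val hk
      simpa using this
    have hd : orderOf a ∣ p ^ k := orderOf_dvd_of_pow_eq_one hk'
    rw [hm]
    have h1 : (S.relIndex N).Coprime p := by
      rw [Nat.coprime_comm]
      exact (Nat.Prime.coprime_iff_not_dvd (Fact.out : p.Prime)).mpr hidx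
    exact Nat.Coprime.coprime_dvd_right hd (Nat.Coprime.pow_right k h1)
  have hfixW : ∀ a : ↥A, (a : G) ∈ W → ∀ n : ↥N, n • a = a := by
    intro a ha n
    apply Subtype.ext
    rw [hsmul, hWN _ ha n n.2]
    group
  refine ⟨((traceHom (S.subgroupOf N) : ↥A →* ↥A).ker ⊓ Z.subgroupOf A).map A.subtype, ?_, ?_, ?_⟩
  · rintro _ ⟨a, ⟨-, ha⟩, rfl⟩
    exact Subgroup.mem_subgroupOf.mp ha
  · rw [eq_bot_iff]
    rintro _ ⟨hxW, ⟨a, ⟨haT, -⟩, rfl⟩⟩
    have hxW' : (a : G) ∈ W := hxW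
    have hTa : traceHom (S.subgroupOf N) a = a ^ Fintype.card (↥N ⧸ S.subgroupOf N) :=
      traceHom_eq_pow _ a (hfixW a hxW')
    have h1 : a ^ Fintype.card (↥N ⧸ S.subgroupOf N) = 1 := by
      rw [← hTa]; exact MonoidHom.mem_ker.mp haT
    have h2 : orderOf a ∣ Fintype.card (↥N ⧸ S.subgroupOf N) := orderOf_dvd_of_pow_eq_one h1
    have h3 : orderOf a = 1 := Nat.eq_one_of_dvd_coprimes (hcop a) h2 dvd_rfl
    rw [orderOf_eq_one_iff] at h3
    rw [Subgroup.mem_bot]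
    show ((a : ↥A) : G) = 1
    rw [h3]; rfl
  · apply le_antisymm (sup_le hWZ ?_)
    · intro z hz
      have hsfix : ∀ s ∈ S.subgroupOf N, s • (⟨z, hZA hz⟩ : ↥A) = ⟨z, hZA hz⟩ := by
        intro s hs
        apply Subtype.ext
        rw [hsmul]
        show (s : G) * z * (s : G)⁻¹ = z
        rw [hZS z hz _ (Subgroup.mem_subgroupOf.mp hs)]
        group
      have htfix := smul_traceHom (S.subgroupOf N) (⟨z, hZA hz⟩ : ↥A) hsfix
      have htW : ((traceHom (S.subgroupOf N) (⟨z, hZA hz⟩ : ↥A) : ↥A) : G) ∈ W := by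
        apply hWmem _ (traceHom (S.subgroupOf N) (⟨z, hZA hz⟩ : ↥A)).2
        intro n hn
        have := congrArg Subtype.val (htfix ⟨n, hn⟩)
        rw [hsmul] at this
        exact this
      obtain ⟨u, hu⟩ := exists_pow_eq_self_of_coprime
        (hcop (traceHom (S.subgroupOf N) (⟨z, hZA hz⟩ : ↥A)))
      have hwW : (((traceHom (S.subgroupOf N) (⟨z, hZA hz⟩ : ↥A)) ^ u : ↥A) : G) ∈ W := by
        rw [Subgroup.coe_pow]
        exact Subgroup.pow_mem _ htW u
      have hTw : traceHom (S.subgroupOf N) ((traceHom (S.subgroupOf N) (⟨z, hZA hz⟩ : ↥A)) ^ u) =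
          traceHom (S.subgroupOf N) (⟨z, hZA hz⟩ : ↥A) := by
        rw [traceHom_eq_pow _ _ (hfixW _ hwW), ← pow_mul, mul_comm, pow_mul]
        exact hu
      have hker : (⟨z, hZA hz⟩ : ↥A) * ((traceHom (S.subgroupOf N) (⟨z, hZA hz⟩ : ↥A)) ^ u)⁻¹ ∈
          (traceHom (S.subgroupOf N) : ↥A →* ↥A).ker := by
        rw [MonoidHom.mem_ker, map_mul, map_inv, hTw, mul_inv_cancel]
      have hzw : z * (((traceHom (S.subgroupOf N) (⟨z, hZA hz⟩ : ↥A)) ^ u : ↥A) : G)⁻¹ ∈ Z :=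
        Subgroup.mul_mem _ hz (Subgroup.inv_mem _ (hWZ hwW))
      have hK : z * (((traceHom (S.subgroupOf N) (⟨z, hZA hz⟩ : ↥A)) ^ u : ↥A) : G)⁻¹ ∈
          ((traceHom (S.subgroupOf N) : ↥A →* ↥A).ker ⊓ Z.subgroupOf A).map A.subtype :=
        ⟨_, ⟨hker, Subgroup.mem_subgroupOf.mpr hzw⟩, rfl⟩
      have hzeq : z = (z * (((traceHom (S.subgroupOf N) (⟨z, hZA hz⟩ : ↥A)) ^ u : ↥A) : G)⁻¹) *
          (((traceHom (S.subgroupOf N) (⟨z, hZA hz⟩ : ↥A)) ^ u : ↥A) : G) := by group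
      rw [hzeq]
      exact Subgroup.mul_mem _ (Subgroup.mem_sup_right hK) (Subgroup.mem_sup_left hwW)
    · rintro _ ⟨a, ⟨-, ha⟩, rfl⟩
      exact Subgroup.mem_subgroupOf.mp ha

end Cfsg.Agent.Lib.Helper49
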